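import Cfsg.Agent.H667.HerFin
import Cfsg.Agent.S0242
import Cfsg.Agent.S0245
import Cfsg.Agent.S1059

/-!
# S3691, ALPHA-N: the natural linear groups with order dividing `C p^x (p^n - 1)`

`nat_kill` : `L` is `SL_F(U)`, `Sp_F(U)` or `G₂(F)` on `U`, `|U| = p ^ n`, `|L|` divides `C p^x (p^n - 1)` and
`(C + 1)^3 < p^n`: then `dim_F U = 2` and `L = SL_F(U)`.
-/

set_option autoImplicit false

namespace Cfsg.Agent.H694.Rg

open Module Cfsg.Agent.H50.Her Cfsg.Agent.H667.HerFin

universe u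

/-- the arithmetic -/
theorem arith {p n C x Q a b : ℕ} (hp : p.Prime) (hC0 : 0 < C) (hQ : 1 < Q) (hb : b ≠ 0) (ha : a ≠ 0)
    (hn : Q ^ a = p ^ n) (hab : a ≤ 3 * b) (hd : (Q ^ b - 1) * (Q ^ a - 1) ∣ C * p ^ x * (p ^ n - 1))
    (hC2 : (C + 1) ^ 3 < p ^ n) : False := by
  have h1 : 1 < Q ^ a := Nat.one_lt_pow ha hQ
  have h2 : 1 < Q ^ b := Nat.one_lt_pow hb hQ
  rw [← hn] at hd hC2
  have h3 : Q ^ b - 1 ∣ C * p ^ x := Nat.dvd_of_mul_dvd_mul_right (by omega) hd
  have hpQ : p ∣ Q := by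
    obtain ⟨c, -, hc⟩ := (Nat.dvd_prime_pow hp).1 (hn ▸ dvd_pow_self Q ha)
    rw [hc]
    refine dvd_pow_self p ?_
    rintro rfl
    rw [pow_zero] at hc
    omega
  have h4 : (Q ^ b - 1).Coprime p := by
    have h5 : (Q ^ b - 1).Coprime (Q ^ b) := by
      have h6 : Q ^ b = (Q ^ b - 1) + 1 := by omega
      conv_rhs => rw [h6]
      exact (Nat.coprime_self_add_right).2 (Nat.coprime_one_right _)
    exact h5.coprime_dvd_right (hpQ.trans (dvd_pow_self Q hb))
  have h5 : Q ^ b - 1 ∣ C := (h4.pow_right x).dvd_of_dvd_mul_right h3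
  have h6 := Nat.le_of_dvd hC0 h5
  have h7 : Q ^ b ≤ C + 1 := by omega
  have h8 : Q ^ a ≤ (C + 1) ^ 3 := by
    calc Q ^ a ≤ Q ^ (3 * b) := Nat.pow_le_pow_right (by omega) hab
      _ = (Q ^ b) ^ 3 := by rw [mul_comm, pow_mul]
      _ ≤ (C + 1) ^ 3 := Nat.pow_le_pow_left h7 3
  omega

/-- `(q^a - 1)(q^(a-1) - 1)` divides `|SL_a(q)|` for `a ≥ 3`. -/
theorem dvd_sl {F : Type*} [Field F] [Fintype F] (k : ℕ) :
    (Fintype.card F ^ (k + 2) - 1) * (Fintype.card F ^ (k + 3) - 1) ∣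
      Nat.card (Matrix.SpecialLinearGroup (Fin (k + 3)) F) := by
  have h := S0242.result (F := F) rfl (k + 3) (by omega)
  have hq : 1 < Fintype.card F := Fintype.one_lt_card
  generalize Fintype.card F = q at h hq ⊢
  rw [Fin.prod_univ_succ, Fin.prod_univ_succ, Fin.prod_univ_castSucc] at h
  simp only [Fin.val_zero, pow_zero, Fin.val_succ, zero_add, pow_one, Fin.val_last] at h
  have e1 : q ^ (k + 3) - q = q * (q ^ (k + 2) - 1) := by
    rw [Nat.mul_sub, mul_one, ← pow_succ']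
  have e2 : q ^ (k + 3) - q ^ (k + 1 + 1) = (q - 1) * q ^ (k + 2) := by
    rw [Nat.sub_mul, one_mul, ← pow_succ']
  rw [e1, e2] at h
  refine ⟨q * (∏ i : Fin k, (q ^ (k + 3) - q ^ ((i.castSucc : ℕ) + 1 + 1))) * q ^ (k + 2), ?_⟩
  apply Nat.eq_of_mul_eq_mul_left (show 0 < q - 1 by omega)
  rw [h]
  ring

/-- `(q^(2m-2) - 1)(q^(2m) - 1)` divides `|Sp_2m(q)|` for `m ≥ 2`. -/
theorem dvd_sp {F : Type*} [Field F] [Fintype F] (k : ℕ) :
    (Fintype.card F ^ (2 * (k + 1)) - 1) * (Fintype.card F ^ (2 * (k + 2)) - 1) ∣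
      Nat.card (Matrix.symplecticGroup (Fin (k + 2)) F) := by
  rw [S0245.result (F := F) rfl (k + 2), Finset.prod_range_succ, Finset.prod_range_succ]
  exact ⟨Fintype.card F ^ ((k + 2) ^ 2) * ∏ i ∈ Finset.range k, (Fintype.card F ^ (2 * (i + 1)) - 1), by ring⟩

section Two

variable {F V : Type*} [Field F] [AddCommGroup V] [Module F V]

/-- In dimension two an alternating form is multiplied by the determinant. -/
theorem alt_det (h2 : finrank F V = 2) (f : LinearMap.BilinForm F V) (hf : f.IsAlt) (g : V →ₗ[F] V) (u v : V) :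
    f (g u) (g v) = LinearMap.det g * f u v := by
  have : FiniteDimensional F V := FiniteDimensional.of_finrank_pos (by omega)
  let b : Basis (Fin 2) F V := finBasisOfFinrankEq F V h2
  set A := LinearMap.toMatrix b b g with hA
  have hdet : LinearMap.det g = A 0 0 * A 1 1 - A 0 1 * A 1 0 := by
    rw [← LinearMap.det_toMatrix b, ← hA, Matrix.det_fin_two]
  have hg : ∀ j, g (b j) = A 0 j • b 0 + A 1 j • b 1 := by
    intro j
    have h := b.sum_repr (g (b j))
    rw [Fin.sum_univ_two] at h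
    rw [hA, LinearMap.toMatrix_apply, LinearMap.toMatrix_apply]
    exact h.symm
  have h00 : ∀ w, f w w = 0 := fun w => hf w
  have h10 : f (b 1) (b 0) = - f (b 0) (b 1) := by
    rw [← hf.neg_eq]
  have hb : f (g (b 0)) (g (b 1)) = LinearMap.det g * f (b 0) (b 1) := by
    rw [hg, hg, hdet]
    simp only [map_add, map_smul, LinearMap.add_apply, LinearMap.smul_apply, smul_eq_mul, h00, h10]
    ring
  have hu : u = b.repr u 0 • b 0 + b.repr u 1 • b 1 := by
    have h := b.sum_repr u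
    rw [Fin.sum_univ_two] at h
    exact h.symm
  have hv : v = b.repr v 0 • b 0 + b.repr v 1 • b 1 := by
    have h := b.sum_repr v
    rw [Fin.sum_univ_two] at h
    exact h.symm
  have hb' : f (g (b 1)) (g (b 0)) = - (LinearMap.det g * f (b 0) (b 1)) := by
    rw [← hb, ← hf.neg_eq]
  rw [hu, hv]
  simp only [map_add, map_smul, LinearMap.add_apply, LinearMap.smul_apply, smul_eq_mul, h00, h10, hb, hb']
  ring

/-- In dimension two the isometries of a nondegenerate alternating form are the maps of determinant one. -/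
theorem det_iff (h2 : finrank F V = 2) (f : LinearMap.BilinForm F V) (hf : f.IsAlt) (hn : f.Nondegenerate)
    (g : V ≃ₗ[F] V) : LinearEquiv.det g = 1 ↔ ∀ u v, f (g u) (g v) = f u v := by
  have : FiniteDimensional F V := FiniteDimensional.of_finrank_pos (by omega)
  have hd : LinearEquiv.det g = 1 ↔ LinearMap.det (g : V →ₗ[F] V) = 1 := by
    rw [← Units.val_eq_one, LinearEquiv.coe_det]
  rw [hd]
  constructor
  · intro h u v
    have h1 := alt_det h2 f hf (g : V →ₗ[F] V) u v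
    rw [h, one_mul] at h1
    exact h1
  · intro h
    have hex : ∃ u v, f u v ≠ 0 := by
      by_contra hcon
      push Not at hcon
      have : Nontrivial V := Module.nontrivial_of_finrank_pos (R := F) (by omega)
      obtain ⟨u, hu⟩ := exists_ne (0 : V)
      exact hu (hn.1 u fun v => hcon u v)
    obtain ⟨u, v, huv⟩ := hex
    have h1 := alt_det h2 f hf (g : V →ₗ[F] V) u v
    have h3 : f ((g : V →ₗ[F] V) u) ((g : V →ₗ[F] V) v) = f u v := h u v
    rw [h3] at h1
    exact (mul_eq_right₀ huv).1 h1.symm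

end Two

theorem nat_kill {p n : ℕ} [Fact p.Prime] {U : Type u} [AddCommGroup U] [Module (ZMod p) U] [Finite U] [Nontrivial U]
    (hU : Nat.card U = p ^ n) (L : Subgroup (U ≃ₗ[ZMod p] U)) (h : NatAct L) (C x : ℕ) (hC0 : 0 < C)
    (hC : Nat.card L ∣ C * p ^ x * (p ^ n - 1)) (hC2 : (C + 1) ^ 3 < p ^ n) :
    ∃ (F : Type) (_ : Field F) (_ : Fintype F) (_ : Module F U), Module.finrank F U = 2 ∧
      (∀ g ∈ L, ∀ (c : F) (v : U), g (c • v) = c • g v) ∧
      (∀ g : U ≃ₗ[F] U, LinearEquiv.det g = 1 ↔ ∃ h ∈ L, ∀ v, h v = g v) := by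
  classical
  have hp : p.Prime := Fact.out
  obtain ⟨F, iF, iF', iM, h2, hlin, hend, hcase⟩ := h
  have : Module.Finite F U := Module.Finite.of_finite
  have hcard : Fintype.card F ^ finrank F U = p ^ n := by
    rw [← hU, Module.natCard_eq_pow_finrank (K := F) (V := U), Nat.card_eq_fintype_card]
  have hQ : 1 < Fintype.card F := Fintype.one_lt_card
  let ρ : L →* (U ≃ₗ[F] U) :=
    { toFun := fun l => { (l : U ≃ₗ[ZMod p] U).toAddEquiv with map_smul' := fun c v => hlin l l.2 c v }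
      map_one' := by ext v; rfl
      map_mul' := fun x y => by ext v; rfl }
  have hρi : Function.Injective ρ := by
    intro x y hxy
    apply Subtype.ext
    ext v
    exact DFunLike.congr_fun hxy v
  have hex' : ∀ g : U ≃ₗ[F] U, (∃ h ∈ L, ∀ v, h v = g v) ↔ ∃ x, ρ x = g := by
    intro g
    constructor
    · rintro ⟨h, hh, hv⟩
      exact ⟨⟨h, hh⟩, by ext v; exact hv v⟩
    · rintro ⟨x, rfl⟩
      exact ⟨x, x.2, fun v => rfl⟩
  rcases hcase with h | ⟨f, hf, hfn, h⟩ | ⟨hp2, h6, h4, ⟨eL⟩, -⟩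
  · obtain ⟨eL⟩ := exists_sl ρ hρi fun g => (h g).trans (hex' g)
    obtain h3 | h3 : finrank F U = 2 ∨ 3 ≤ finrank F U := by omega
    · exact ⟨F, iF, iF', iM, h3, hlin, h⟩
    · exfalso
      obtain ⟨k, hk⟩ : ∃ k, finrank F U = k + 3 := ⟨finrank F U - 3, by omega⟩
      rw [Nat.card_congr eL.toEquiv, hk] at hC
      rw [hk] at hcard
      exact arith (b := k + 2) hp hC0 hQ (by omega) (by omega) hcard (by omega) ((dvd_sl k).trans hC) hC2
  · obtain ⟨m, hm, ⟨eL⟩⟩ := exists_sp ρ hρi f hf hfn fun g => (h g).trans (hex' g)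
    obtain h3 | h3 : m = 1 ∨ 2 ≤ m := by omega
    · subst h3
      exact ⟨F, iF, iF', iM, hm, hlin, fun g => (det_iff hm f hf hfn g).trans (h g)⟩
    · exfalso
      obtain ⟨k, rfl⟩ : ∃ k, m = k + 2 := ⟨m - 2, by omega⟩
      rw [Nat.card_congr eL.toEquiv] at hC
      rw [hm] at hcard
      exact arith (b := 2 * (k + 1)) hp hC0 hQ (by omega) (by omega) hcard (by omega) ((dvd_sp k).trans hC) hC2
  · exfalso
    rw [Nat.card_congr eL.toEquiv] at hC
    rw [h6] at hcard
    refine arith (b := 2) hp hC0 hQ (by omega) (by omega) hcard (by omega) (Dvd.dvd.trans ?_ hC) hC2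
    rw [S1059.result (F := F) rfl]
    exact ⟨Fintype.card F ^ 6, by ring⟩

end Cfsg.Agent.H694.Rg
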